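import Mathlib
import Cfsg.Prelude.Def_Transfer

/-! Groups of class two with centre of prime order: their order is an odd power of the prime, and
every homomorphism to the centre which is trivial on the centre is inner. -/

set_option autoImplicit false

universe u

namespace Cfsg.Agent.Lib.Transfer

open Subgroup

section

variable {W : Type u} [Group W]

/-- Commutator bilinearity, second slot. -/
lemma cm_mul_right {x u v : W} (h : x * v * x⁻¹ * v⁻¹ ∈ center W) :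
    x * (u * v) * x⁻¹ * (u * v)⁻¹ = (x * u * x⁻¹ * u⁻¹) * (x * v * x⁻¹ * v⁻¹) := by
  have h1 := (mem_center_iff.mp h) u
  calc x * (u * v) * x⁻¹ * (u * v)⁻¹
      = (x * u * x⁻¹ * u⁻¹) * (u * (x * v * x⁻¹ * v⁻¹) * u⁻¹) := by group
    _ = _ := by rw [h1]; group

/-- Commutator bilinearity, first slot. -/
lemma cm_mul_left {u v x : W} (h : v * x * v⁻¹ * x⁻¹ ∈ center W) (h' : u * x * u⁻¹ * x⁻¹ ∈ center W) :
    (u * v) * x * (u * v)⁻¹ * x⁻¹ = (u * x * u⁻¹ * x⁻¹) * (v * x * v⁻¹ * x⁻¹) := by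
  have h1 := (mem_center_iff.mp h) u
  have h2 := (mem_center_iff.mp h) (u * x * u⁻¹ * x⁻¹)
  calc (u * v) * x * (u * v)⁻¹ * x⁻¹
      = (u * (v * x * v⁻¹ * x⁻¹) * u⁻¹) * (u * x * u⁻¹ * x⁻¹) := by group
    _ = (v * x * v⁻¹ * x⁻¹) * (u * x * u⁻¹ * x⁻¹) := by rw [h1]; group
    _ = _ := h2.symm

end

variable {p : ℕ} [hp : Fact p.Prime]

theorem class_two_center_prime_aux : ∀ (n : ℕ) (W : Type u) [Group W] [Finite W], Nat.card W = n →
    Nat.card (center W) = p → (∀ a b : W, a * b * a⁻¹ * b⁻¹ ∈ center W) →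
    (∃ k, Nat.card W = p ^ (2 * k + 1)) ∧
    ∀ χ : W → W, (∀ u v, χ (u * v) = χ u * χ v) → (∀ w, χ w ∈ center W) → (∀ z ∈ center W, χ z = 1) →
      ∃ e : W, ∀ w, χ w = e * w * e⁻¹ * w⁻¹ := by
  intro n
  induction n using Nat.strong_induction_on with
  | _ n ih =>
  intro W _ _ hn hZ hc
  classical
  by_cases htop : ∀ x : W, x ∈ center W
  · -- abelian case
    constructor
    · refine ⟨0, ?_⟩
      have : center W = ⊤ := eq_top_iff.mpr fun x _ => htop x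
      rw [this, Subgroup.card_top] at hZ
      simpa using hZ
    · intro χ _ _ h3
      refine ⟨1, fun w => ?_⟩
      rw [h3 w (htop w)]
      group
  push Not at htop
  obtain ⟨x, hx⟩ := htop
  obtain ⟨y, hy⟩ : ∃ y, x * y * x⁻¹ * y⁻¹ ≠ 1 := by
    by_contra hcon
    push Not at hcon
    apply hx
    rw [mem_center_iff]
    intro y
    have := hcon y
    have h2 : x * y = y * x := by
      calc x * y = (x * y * x⁻¹ * y⁻¹) * (y * x) := by group
        _ = y * x := by rw [this, one_mul]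
    exact h2.symm
  set c₀ := x * y * x⁻¹ * y⁻¹ with hc₀
  have hc₀Z : c₀ ∈ center W := hc x y
  -- every central element is a power of `c₀`
  have hpow : ∀ (d : W), d ∈ center W → d ≠ 1 → ∀ z ∈ center W, ∃ m : ℕ, z = d ^ m := by
    intro d hd hd1 z hz
    have h5 : (⟨z, hz⟩ : center W) ∈ Submonoid.powers (⟨d, hd⟩ : center W) := by
      haveI : Fintype (center W) := Fintype.ofFinite _
      refine mem_powers_of_prime_card (p := p) ?_ ?_
      · exact hZ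
      · intro h; apply hd1; exact congrArg Subtype.val h
    obtain ⟨m, hm⟩ := h5
    exact ⟨m, (congrArg Subtype.val hm).symm⟩
  -- bilinearity
  have hr : ∀ a u v : W, a * (u * v) * a⁻¹ * (u * v)⁻¹ = (a * u * a⁻¹ * u⁻¹) * (a * v * a⁻¹ * v⁻¹) :=
    fun a u v => cm_mul_right (hc a v)
  have hl : ∀ u v a : W, (u * v) * a * (u * v)⁻¹ * a⁻¹ = (u * a * u⁻¹ * a⁻¹) * (v * a * v⁻¹ * a⁻¹) :=
    fun u v a => cm_mul_left (hc v a) (hc u a)
  have hlpow : ∀ (u a : W) (s : ℕ), (u ^ s) * a * (u ^ s)⁻¹ * a⁻¹ = (u * a * u⁻¹ * a⁻¹) ^ s := by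
    intro u a s
    induction s with
    | zero => simp
    | succ s ihs => rw [pow_succ, hl, ihs, pow_succ]
  have hself : ∀ (u : W) (s : ℕ), (u ^ s) * u * (u ^ s)⁻¹ * u⁻¹ = 1 := by
    intro u s
    rw [hlpow]
    simp
  have hyx : y * x * y⁻¹ * x⁻¹ = c₀⁻¹ := by rw [hc₀]; group
  have hc₀i : c₀⁻¹ ∈ center W := (center W).inv_mem hc₀Z
  have hc₀i1 : c₀⁻¹ ≠ 1 := inv_ne_one.mpr hy
  -- solving commutator equations
  have hsolve : ∀ z₁ ∈ center W, ∀ z₂ ∈ center W, ∃ s t : ℕ,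
      (y ^ s * x ^ t) * x * (y ^ s * x ^ t)⁻¹ * x⁻¹ = z₁ ∧
      (y ^ s * x ^ t) * y * (y ^ s * x ^ t)⁻¹ * y⁻¹ = z₂ := by
    intro z₁ hz₁ z₂ hz₂
    obtain ⟨s, hs⟩ := hpow _ hc₀i hc₀i1 z₁ hz₁
    obtain ⟨t, ht⟩ := hpow _ hc₀Z hy z₂ hz₂
    refine ⟨s, t, ?_, ?_⟩
    · rw [hl, hlpow, hself, hyx, mul_one, hs]
    · rw [hl, hlpow, hlpow]
      rw [show y * y * y⁻¹ * y⁻¹ = 1 by group, one_pow, one_mul, ht]
  -- the homomorphism
  let φ : W →* center W × center W :=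
    { toFun := fun w => (⟨w * x * w⁻¹ * x⁻¹, hc w x⟩, ⟨w * y * w⁻¹ * y⁻¹, hc w y⟩)
      map_one' := by
        apply Prod.ext <;> apply Subtype.ext <;> simp
      map_mul' := by
        intro u v
        apply Prod.ext <;> apply Subtype.ext
        · exact hl u v x
        · exact hl u v y }
  have hφmem : ∀ w, w ∈ φ.ker ↔ w * x * w⁻¹ * x⁻¹ = 1 ∧ w * y * w⁻¹ * y⁻¹ = 1 := by
    intro w
    rw [MonoidHom.mem_ker]
    constructor
    · intro h
      exact ⟨congrArg (fun q => ((q.1 : center W) : W)) h, congrArg (fun q => ((q.2 : center W) : W)) h⟩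
    · rintro ⟨h1, h2⟩
      apply Prod.ext <;> apply Subtype.ext
      · exact h1
      · exact h2
  have hφsurj : Function.Surjective φ := by
    rintro ⟨⟨z₁, hz₁⟩, ⟨z₂, hz₂⟩⟩
    obtain ⟨s, t, h1, h2⟩ := hsolve z₁ hz₁ z₂ hz₂
    refine ⟨y ^ s * x ^ t, ?_⟩
    apply Prod.ext <;> apply Subtype.ext
    · exact h1
    · exact h2
  set W₁ : Subgroup W := φ.ker with hW₁
  have hcard : Nat.card W = Nat.card W₁ * p ^ 2 := by
    have h1 := Subgroup.card_eq_card_quotient_mul_card_subgroup W₁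
    have h2 : Nat.card (W ⧸ W₁) = Nat.card (center W × center W) :=
      Nat.card_congr (QuotientGroup.quotientKerEquivOfSurjective φ hφsurj).toEquiv
    rw [Nat.card_prod, hZ] at h2
    rw [h1, h2, mul_comm, sq]
  have hcZ1 : ∀ z ∈ center W, z ∈ W₁ := by
    intro z hz
    rw [hW₁, hφmem]
    constructor
    · rw [← mem_center_iff.mp hz x]; group
    · rw [← mem_center_iff.mp hz y]; group
  -- decomposition
  have hdec : ∀ w : W, ∃ s t : ℕ, w * (y ^ s * x ^ t)⁻¹ ∈ W₁ := by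
    intro w
    obtain ⟨s, t, h1, h2⟩ := hsolve _ (hc w x) _ (hc w y)
    refine ⟨s, t, ?_⟩
    have h3 : φ (y ^ s * x ^ t) = φ w := by
      apply Prod.ext <;> apply Subtype.ext
      · exact h1
      · exact h2
    rw [hW₁, MonoidHom.mem_ker, map_mul, map_inv, h3, mul_inv_cancel]
  -- elements of `W₁` commute with `x, y`
  have hW₁x : ∀ w ∈ W₁, w * x = x * w := by
    intro w hw
    rw [hW₁, hφmem] at hw
    calc w * x = (w * x * w⁻¹ * x⁻¹) * (x * w) := by group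
      _ = x * w := by rw [hw.1, one_mul]
  have hW₁y : ∀ w ∈ W₁, w * y = y * w := by
    intro w hw
    rw [hW₁, hφmem] at hw
    calc w * y = (w * y * w⁻¹ * y⁻¹) * (y * w) := by group
      _ = y * w := by rw [hw.2, one_mul]
  have hW₁f : ∀ w ∈ W₁, ∀ s t : ℕ, w * (y ^ s * x ^ t) = (y ^ s * x ^ t) * w := by
    intro w hw s t
    have h1 : Commute w (y ^ s) := (show Commute w y from hW₁y w hw).pow_right s
    have h2 : Commute w (x ^ t) := (show Commute w x from hW₁x w hw).pow_right t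
    exact (h1.mul_right h2).eq
  -- the centre of `W₁`
  have hZ₁map : (center W₁).map W₁.subtype = center W := by
    ext z
    constructor
    · rintro ⟨⟨z, hzW⟩, hz, rfl⟩
      rw [mem_center_iff]
      intro w
      obtain ⟨s, t, hst⟩ := hdec w
      have h1 : w = (w * (y ^ s * x ^ t)⁻¹) * (y ^ s * x ^ t) := by group
      have h2 := mem_center_iff.mp hz ⟨_, hst⟩
      have h2' : (w * (y ^ s * x ^ t)⁻¹) * z = z * (w * (y ^ s * x ^ t)⁻¹) :=
        congrArg Subtype.val h2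
      have h3 := hW₁f z hzW s t
      calc w * z = (w * (y ^ s * x ^ t)⁻¹) * ((y ^ s * x ^ t) * z) := by group
        _ = (w * (y ^ s * x ^ t)⁻¹) * (z * (y ^ s * x ^ t)) := by rw [← h3]
        _ = ((w * (y ^ s * x ^ t)⁻¹) * z) * (y ^ s * x ^ t) := by group
        _ = (z * (w * (y ^ s * x ^ t)⁻¹)) * (y ^ s * x ^ t) := by rw [h2']
        _ = z * w := by group
    · intro hz
      refine ⟨⟨z, hcZ1 z hz⟩, mem_center_iff.mpr ?_, rfl⟩
      rintro ⟨g, hg⟩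
      apply Subtype.ext
      exact mem_center_iff.mp hz g
  have hZ₁ : Nat.card (center W₁) = p := by
    rw [← hZ, ← hZ₁map]
    exact Nat.card_congr (Subgroup.equivMapOfInjective (center W₁) W₁.subtype W₁.subtype_injective).toEquiv
  have hc₁ : ∀ a b : W₁, a * b * a⁻¹ * b⁻¹ ∈ center W₁ := by
    rintro ⟨a, ha⟩ ⟨b, hb⟩
    rw [mem_center_iff]
    rintro ⟨g, hg⟩
    apply Subtype.ext
    exact mem_center_iff.mp (hc a b) g
  have hlt : Nat.card W₁ < n := by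
    have hp2 := hp.out.two_le
    have h0 : 0 < Nat.card W₁ := Nat.card_pos
    have h4 : 4 ≤ p ^ 2 := by nlinarith
    rw [← hn, hcard]
    nlinarith
  obtain ⟨⟨k, hk⟩, hχ₁⟩ := ih _ hlt W₁ rfl hZ₁ hc₁
  refine ⟨⟨k + 1, ?_⟩, ?_⟩
  · rw [hcard, hk]; ring
  intro χ hχm hχZ hχz
  -- first correction
  obtain ⟨s₁, t₁, h1, h2⟩ := hsolve _ (hχZ x) _ (hχZ y)
  set e₁ := y ^ s₁ * x ^ t₁ with he₁
  let χ' : W → W := fun w => χ w * (e₁ * w * e₁⁻¹ * w⁻¹)⁻¹
  have hχ'm : ∀ u v, χ' (u * v) = χ' u * χ' v := by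
    intro u v
    simp only [χ']
    rw [hr, hχm, mul_inv_rev]
    have h9 : χ v * (e₁ * v * e₁⁻¹ * v⁻¹)⁻¹ ∈ center W :=
      (center W).mul_mem (hχZ v) ((center W).inv_mem (hc e₁ v))
    have h10 := mem_center_iff.mp h9 (e₁ * u * e₁⁻¹ * u⁻¹)⁻¹
    calc χ u * χ v * ((e₁ * v * e₁⁻¹ * v⁻¹)⁻¹ * (e₁ * u * e₁⁻¹ * u⁻¹)⁻¹)
        = χ u * ((χ v * (e₁ * v * e₁⁻¹ * v⁻¹)⁻¹) * (e₁ * u * e₁⁻¹ * u⁻¹)⁻¹) := by group
      _ = χ u * ((e₁ * u * e₁⁻¹ * u⁻¹)⁻¹ * (χ v * (e₁ * v * e₁⁻¹ * v⁻¹)⁻¹)) := by rw [h10]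
      _ = _ := by group
  have hχ'Z : ∀ w, χ' w ∈ center W := fun w =>
    (center W).mul_mem (hχZ w) ((center W).inv_mem (hc e₁ w))
  have hχ'z : ∀ z ∈ center W, χ' z = 1 := by
    intro z hz
    simp only [χ']
    rw [hχz z hz, mem_center_iff.mp hz e₁]
    group
  have hχ'x : χ' x = 1 := by
    simp only [χ']
    rw [h1]; group
  have hχ'y : χ' y = 1 := by
    simp only [χ']
    rw [h2]; group
  have hχ'1 : χ' 1 = 1 := hχ'z 1 (center W).one_mem
  have hχ'pow : ∀ (a : W), χ' a = 1 → ∀ s : ℕ, χ' (a ^ s) = 1 := by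
    intro a ha s
    induction s with
    | zero => simpa using hχ'1
    | succ s ihs => rw [pow_succ, hχ'm, ihs, ha, one_mul]
  let χ₁ : W₁ → W₁ := fun w => ⟨χ' w, hcZ1 _ (hχ'Z w)⟩
  obtain ⟨e₂, he₂⟩ := hχ₁ χ₁ (fun u v => Subtype.ext (hχ'm u v))
    (fun w => mem_center_iff.mpr (by
      rintro ⟨g, hg⟩
      apply Subtype.ext
      exact mem_center_iff.mp (hχ'Z w) g))
    (fun z hz => Subtype.ext (hχ'z z (by
      rw [← hZ₁map]
      exact ⟨z, hz, rfl⟩)))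
  refine ⟨(e₂ : W) * e₁, fun w => ?_⟩
  obtain ⟨s, t, hst⟩ := hdec w
  have h3 : χ' w = e₂ * w * (e₂ : W)⁻¹ * w⁻¹ := by
    have h4 : w = (w * (y ^ s * x ^ t)⁻¹) * (y ^ s * x ^ t) := by group
    have h5 := congrArg Subtype.val (he₂ ⟨_, hst⟩)
    have h6 : χ' (w * (y ^ s * x ^ t)⁻¹) = e₂ * (w * (y ^ s * x ^ t)⁻¹) * (e₂ : W)⁻¹ * (w * (y ^ s * x ^ t)⁻¹)⁻¹ := h5
    have h7 : χ' w = χ' (w * (y ^ s * x ^ t)⁻¹) := by
      have hf : χ' (y ^ s * x ^ t) = 1 := by rw [hχ'm, hχ'pow _ hχ'y, hχ'pow _ hχ'x, one_mul]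
      calc χ' w = χ' ((w * (y ^ s * x ^ t)⁻¹) * (y ^ s * x ^ t)) := by rw [← h4]
        _ = χ' (w * (y ^ s * x ^ t)⁻¹) * χ' (y ^ s * x ^ t) := hχ'm _ _
        _ = _ := by rw [hf, mul_one]
    have h8 := hW₁f e₂ e₂.2 s t
    rw [h7, h6]
    have h9 : (e₂ : W)⁻¹ * (y ^ s * x ^ t) = (y ^ s * x ^ t) * (e₂ : W)⁻¹ :=
      (show Commute (e₂ : W) (y ^ s * x ^ t) from h8).inv_left.eq
    calc (e₂ : W) * (w * (y ^ s * x ^ t)⁻¹) * (e₂ : W)⁻¹ * (w * (y ^ s * x ^ t)⁻¹)⁻¹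
        = e₂ * w * (y ^ s * x ^ t)⁻¹ * ((e₂ : W)⁻¹ * (y ^ s * x ^ t)) * w⁻¹ := by group
      _ = e₂ * w * (y ^ s * x ^ t)⁻¹ * ((y ^ s * x ^ t) * (e₂ : W)⁻¹) * w⁻¹ := by rw [h9]
      _ = _ := by group
  have h10 : χ w = χ' w * (e₁ * w * e₁⁻¹ * w⁻¹) := by
    simp only [χ']; group
  rw [h10, h3]
  exact (hl (e₂ : W) e₁ w).symm

/-- A group of class at most two whose centre has prime order `p` has order an odd power of `p`. -/
theorem card_of_class_two_center_prime {W : Type u} [Group W] [Finite W]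
    (hZ : Nat.card (center W) = p) (hc : ∀ a b : W, a * b * a⁻¹ * b⁻¹ ∈ center W) :
    ∃ k, Nat.card W = p ^ (2 * k + 1) :=
  (class_two_center_prime_aux _ W rfl hZ hc).1

/-- In a group of class at most two whose centre has prime order, every homomorphism to the centre
trivial on the centre is "inner". -/
theorem inner_of_class_two_center_prime {W : Type u} [Group W] [Finite W]
    (hZ : Nat.card (center W) = p) (hc : ∀ a b : W, a * b * a⁻¹ * b⁻¹ ∈ center W)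
    (χ : W → W) (h1 : ∀ u v, χ (u * v) = χ u * χ v) (h2 : ∀ w, χ w ∈ center W)
    (h3 : ∀ z ∈ center W, χ z = 1) : ∃ e : W, ∀ w, χ w = e * w * e⁻¹ * w⁻¹ :=
  (class_two_center_prime_aux _ W rfl hZ hc).2 χ h1 h2 h3

theorem extraspecial_commutator_mem {W : Type u} [Group W] (h : Cfsg.IsExtraspecial p W) (a b : W) :
    a * b * a⁻¹ * b⁻¹ ∈ center W := by
  rw [← h.1.2.2]
  exact Subgroup.commutator_mem_commutator (Subgroup.mem_top a) (Subgroup.mem_top b)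

end Cfsg.Agent.Lib.Transfer
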